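import Cfsg.Agent.H681.IP.Sec
import Cfsg.Agent.H316.HT.Defs

/-!
# Vacuous rows of S4933 (helper681)

* `row_of_derived` (V1) : `Row p S` when a `p`-subgroup of `S` has a section whose derived subgroup is not abelian;
* `row_two` : `Row 2 S` when `S` has a `2`-subgroup of class `≥ 3` and a `2`-subgroup containing two commuting
  nonabelian pairs (`IPTwo` = the theorem of Isaacs and Passman);
* `row_two_hom` : the same for embedded `2`-groups;
* `class_three_of_swap` : `⁅⁅x, t⁆, y⁆ ≠ 1` when `t` moves `⟨x, y⟩` to a subgroup commuting with it.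
-/

set_option autoImplicit false

namespace Cfsg.Agent.H681.IP

open Cfsg Subgroup Cfsg.Agent.H316.HT
open scoped commutatorElement

universe u v w

theorem TD.of_CD {p a : ℕ} {P : Type u} [Group P] (h : CD p a P) : TD p a P := h.1

/-- **V1.** -/
theorem row_of_derived {p : ℕ} (hp : p.Prime) {S : Type v} [Group S] {X : Type w} [Group X] (f : X →* S)
    (hf : Function.Injective f) (hX : IsPGroup p X) {Q : Type u} [Group Q] (g : X →* Q)
    (hg : Function.Surjective g) {x y z t : Q} (h : ¬ Commute ⁅x, y⁆ ⁅z, t⁆) : Row p S := by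
  intro A _ _ N _ ⟨e⟩ _ M _ P a _ hcd
  exfalso
  have : Fact p.Prime := ⟨hp⟩
  obtain ⟨i, hi⟩ := exists_hom P (N.subtype.comp (e.symm.toMonoidHom.comp f))
    (fun a b hab => hf (e.symm.injective (Subtype.val_injective hab))) hX
  exact h ((TD.of_CD hcd).comm_comm_section i hi g hg x y z t)

/-- V1 for elements of a `p`-subgroup -/
theorem row_of_derived_mem {p : ℕ} (hp : p.Prime) {S : Type v} [Group S] (X : Subgroup S) (hX : IsPGroup p X)
    {x y z t : S} (hx : x ∈ X) (hy : y ∈ X) (hz : z ∈ X) (ht : t ∈ X) (h : ¬ Commute ⁅x, y⁆ ⁅z, t⁆) : Row p S := by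
  refine row_of_derived hp X.subtype X.subtype_injective hX (MonoidHom.id X) Function.surjective_id
    (x := ⟨x, hx⟩) (y := ⟨y, hy⟩) (z := ⟨z, hz⟩) (t := ⟨t, ht⟩) fun hc => h ?_
  have h1 := congrArg Subtype.val hc.eq
  exact h1

/-- **The vacuous rows for `p = 2`**, embedded `2`-groups -/
theorem row_two_hom (hIP : IPTwo) {S : Type v} [Group S] {X : Type w} [Group X] (f : X →* S)
    (hf : Function.Injective f) (hX : IsPGroup 2 X) {x y z : X} (hc : ⁅⁅x, y⁆, z⁆ ≠ 1) {Y : Type u} [Group Y]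
    (g : Y →* S) (hg : Function.Injective g) (hY : IsPGroup 2 Y) {x₁ y₁ x₂ y₂ : Y} (h1 : x₁ * y₁ ≠ y₁ * x₁)
    (h2 : x₂ * y₂ ≠ y₂ * x₂) (c1 : Commute x₁ x₂) (c2 : Commute x₁ y₂) (c3 : Commute y₁ x₂)
    (c4 : Commute y₁ y₂) : Row 2 S := by
  intro A _ _ N _ ⟨e⟩ _ M _ P a _ hcd
  exfalso
  have : Fact (Nat.Prime 2) := ⟨Nat.prime_two⟩
  obtain ⟨i, hi⟩ := exists_hom P (N.subtype.comp (e.symm.toMonoidHom.comp f))
    (fun a b hab => hf (e.symm.injective (Subtype.val_injective hab))) hX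
  obtain ⟨j, hj⟩ := exists_hom P (N.subtype.comp (e.symm.toMonoidHom.comp g))
    (fun a b hab => hg (e.symm.injective (Subtype.val_injective hab))) hY
  have hTD := TD.of_CD hcd
  refine hTD.vac_two P.isPGroup' (fun ha => hIP _ P.isPGroup' a ha hTD) (x := i x) (y := i y) (z := i z)
    (fun h => hc (hi ?_)) (x₁ := j x₁) (y₁ := j y₁) (x₂ := j x₂) (y₂ := j y₂) (fun h => h1 (hj ?_))
    (fun h => h2 (hj ?_)) (c1.map j) (c2.map j) (c3.map j) (c4.map j)
  · rw [map_commutatorElement, map_commutatorElement, map_one]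
    exact h
  · rw [map_mul, map_mul]
    exact h
  · rw [map_mul, map_mul]
    exact h

/-- **The vacuous rows for `p = 2`** -/
theorem row_two (hIP : IPTwo) {S : Type v} [Group S] (X : Subgroup S) (hX : IsPGroup 2 X) {x y z : S}
    (hx : x ∈ X) (hy : y ∈ X) (hz : z ∈ X) (hc : ⁅⁅x, y⁆, z⁆ ≠ 1) (Y : Subgroup S) (hY : IsPGroup 2 Y)
    {x₁ y₁ x₂ y₂ : S} (m1 : x₁ ∈ Y) (m2 : y₁ ∈ Y) (m3 : x₂ ∈ Y) (m4 : y₂ ∈ Y) (h1 : x₁ * y₁ ≠ y₁ * x₁)
    (h2 : x₂ * y₂ ≠ y₂ * x₂) (c1 : Commute x₁ x₂) (c2 : Commute x₁ y₂) (c3 : Commute y₁ x₂)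
    (c4 : Commute y₁ y₂) : Row 2 S :=
  row_two_hom hIP X.subtype X.subtype_injective hX (x := ⟨x, hx⟩) (y := ⟨y, hy⟩) (z := ⟨z, hz⟩)
    (fun h => hc (congrArg Subtype.val h)) Y.subtype Y.subtype_injective hY (x₁ := ⟨x₁, m1⟩) (y₁ := ⟨y₁, m2⟩)
    (x₂ := ⟨x₂, m3⟩) (y₂ := ⟨y₂, m4⟩) (fun h => h1 (congrArg Subtype.val h))
    (fun h => h2 (congrArg Subtype.val h)) (Subtype.ext c1.eq) (Subtype.ext c2.eq) (Subtype.ext c3.eq)
    (Subtype.ext c4.eq)

/-- `⟨x, y⟩` and its conjugate by `t` commute: `⟨x, y, t⟩` has class at least three -/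
theorem class_three_of_swap {S : Type v} [Group S] {x y t : S} (h : x * y ≠ y * x)
    (h1 : Commute (t * x * t⁻¹) x) (h2 : Commute (t * x * t⁻¹) y) : ⁅⁅x, t⁆, y⁆ ≠ 1 := by
  intro h3
  apply h
  have h4 := commutatorElement_eq_one_iff_commute.1 h3
  have h5 : ⁅x, t⁆ = x * (t * x * t⁻¹)⁻¹ := by
    rw [commutatorElement_def]
    group
  rw [h5] at h4
  have h6 : x = x * (t * x * t⁻¹)⁻¹ * (t * x * t⁻¹) := by group
  rw [h6]
  exact (h4.mul_left h2).eq

/-- **Two commuting nonabelian `2`-subgroups exchanged by a `2`-element** : `X` a `2`-subgroup containing `x`, `y`, `t`. -/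
theorem row_two_swap (hIP : IPTwo) {S : Type v} [Group S] (X : Subgroup S) (hX : IsPGroup 2 X) {x y t : S}
    (hx : x ∈ X) (hy : y ∈ X) (ht : t ∈ X) (h : x * y ≠ y * x) (c1 : Commute x (t * x * t⁻¹))
    (c2 : Commute x (t * y * t⁻¹)) (c3 : Commute y (t * x * t⁻¹)) (c4 : Commute y (t * y * t⁻¹)) : Row 2 S := by
  refine row_two hIP X hX hx ht hy (class_three_of_swap h c1.symm c3.symm) X hX hx hy
    (X.mul_mem (X.mul_mem ht hx) (X.inv_mem ht)) (X.mul_mem (X.mul_mem ht hy) (X.inv_mem ht)) h ?_ c1 c2 c3 c4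
  intro h3
  apply h
  have h4 : t * (x * y) * t⁻¹ = t * (y * x) * t⁻¹ := by
    have e1 : t * (x * y) * t⁻¹ = t * x * t⁻¹ * (t * y * t⁻¹) := by group
    have e2 : t * (y * x) * t⁻¹ = t * y * t⁻¹ * (t * x * t⁻¹) := by group
    rw [e1, e2, h3]
  exact mul_left_cancel (mul_right_cancel h4)

end Cfsg.Agent.H681.IP
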