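import Cfsg.Agent.H709.HT.IPTwo
import Cfsg.Agent.H681.HT.Quat

/-!
# The rows with the theorem of Isaacs and Passman plugged in (helper681; `ip_two` : helper709)
-/

set_option autoImplicit false

namespace Cfsg.Agent.H681.IP

open Cfsg Subgroup Cfsg.Agent.H316.HT
open scoped commutatorElement

universe u v w

/-- `IPTwo` holds (helper709) -/
theorem ipTwo : IPTwo := fun _ _ _ h2 _ ha hcd => Cfsg.Agent.H709.HT.ip_two h2 ha hcd

/-- **The vacuous rows for `p = 2`**, embedded `2`-groups -/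
theorem row_two_hom' {S : Type v} [Group S] {X : Type w} [Group X] (f : X →* S)
    (hf : Function.Injective f) (hX : IsPGroup 2 X) {x y z : X} (hc : ⁅⁅x, y⁆, z⁆ ≠ 1) {Y : Type u} [Group Y]
    (g : Y →* S) (hg : Function.Injective g) (hY : IsPGroup 2 Y) {x₁ y₁ x₂ y₂ : Y} (h1 : x₁ * y₁ ≠ y₁ * x₁)
    (h2 : x₂ * y₂ ≠ y₂ * x₂) (c1 : Commute x₁ x₂) (c2 : Commute x₁ y₂) (c3 : Commute y₁ x₂)
    (c4 : Commute y₁ y₂) : Row 2 S :=
  row_two_hom ipTwo f hf hX hc g hg hY h1 h2 c1 c2 c3 c4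

/-- **The vacuous rows for `p = 2`** -/
theorem row_two' {S : Type v} [Group S] (X : Subgroup S) (hX : IsPGroup 2 X) {x y z : S}
    (hx : x ∈ X) (hy : y ∈ X) (hz : z ∈ X) (hc : ⁅⁅x, y⁆, z⁆ ≠ 1) (Y : Subgroup S) (hY : IsPGroup 2 Y)
    {x₁ y₁ x₂ y₂ : S} (m1 : x₁ ∈ Y) (m2 : y₁ ∈ Y) (m3 : x₂ ∈ Y) (m4 : y₂ ∈ Y) (h1 : x₁ * y₁ ≠ y₁ * x₁)
    (h2 : x₂ * y₂ ≠ y₂ * x₂) (c1 : Commute x₁ x₂) (c2 : Commute x₁ y₂) (c3 : Commute y₁ x₂)
    (c4 : Commute y₁ y₂) : Row 2 S :=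
  row_two ipTwo X hX hx hy hz hc Y hY m1 m2 m3 m4 h1 h2 c1 c2 c3 c4

/-- **Two commuting nonabelian `2`-subgroups exchanged by a `2`-element** : `X` a `2`-subgroup containing `x`, `y`, `t`. -/
theorem row_two_swap' {S : Type v} [Group S] (X : Subgroup S) (hX : IsPGroup 2 X) {x y t : S}
    (hx : x ∈ X) (hy : y ∈ X) (ht : t ∈ X) (h : x * y ≠ y * x) (c1 : Commute x (t * x * t⁻¹))
    (c2 : Commute x (t * y * t⁻¹)) (c3 : Commute y (t * x * t⁻¹)) (c4 : Commute y (t * y * t⁻¹)) : Row 2 S :=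
  row_two_swap ipTwo X hX hx hy ht h c1 c2 c3 c4

/-- **Row for a swapped quaternion (or dihedral) pair**: nothing but `i`, `j`, `w` to exhibit. -/
theorem row_of_swap' {S : Type v} [Group S] {i j w : S} {k : ℕ} (hi : i ^ 4 = 1) (hj : j ^ 4 = 1)
    (hij : j * i * j⁻¹ = i⁻¹) (hne : i * j ≠ j * i) (hw : w ^ 2 ^ k = 1) (w1 : Commute (w ^ 2) i)
    (w2 : Commute (w ^ 2) j) (c1 : Commute i (w * i * w⁻¹)) (c2 : Commute i (w * j * w⁻¹))
    (c3 : Commute j (w * i * w⁻¹)) (c4 : Commute j (w * j * w⁻¹)) : Row 2 S :=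
  HT.row_of_swap ipTwo hi hj hij hne hw w1 w2 c1 c2 c3 c4

end Cfsg.Agent.H681.IP
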