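import Cfsg.Agent.S4459

/-!
# Two character degrees `1, p ^ a` of a Sylow `p`-subgroup: sections (helper681, for S4933)

`TD p a P` : all degrees of `P` are `1` or `p ^ a`.

* `TD.surj`, `TD.le` : quotients and subgroups;
* `TD.comm_comm` (V1) : the derived subgroup of `P` (of every section of `P`) is abelian;
* `TD.eq_one_of_deg`, `TD.eq_one_of_abelian`, `TD.eq_one_of_index` (V2, V3) : `a = 1` as soon as a quotient has a
  character of degree `p`, resp. is nonabelian with an abelian subgroup of index `p`, resp. `M' ≠ P'` for a subgroup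
  `M` of index `p`;
* `TD.false_of_pairs` : for `a = 1` there are no two commuting nonabelian subgroups;
* `exists_hom` : a `p`-group embedded in `A` embeds in every Sylow `p`-subgroup of `A`;
* `vac_two` : `p = 2`: no group with a `2`-subgroup of class `≥ 3` and two commuting nonabelian `2`-subgroups.
-/

set_option autoImplicit false

namespace Cfsg.Agent.H681.IP

open Cfsg Subgroup
open Cfsg.Agent.Characters.Core Cfsg.Agent.Characters.Clifford Cfsg.Agent.H597.Base Cfsg.Agent.H597.Degrees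
open scoped commutatorElement

universe u v w

/-- all degrees are `1` or `p ^ a` -/
def TD (p a : ℕ) (P : Type u) [Group P] : Prop :=
  ∀ φ : IrrCharacter P, charDegree (φ : P → ℂ) = 1 ∨ charDegree (φ : P → ℂ) = p ^ a

theorem charDegree_comp {P : Type u} {Q : Type v} [Group P] [Group Q] (f : P →* Q) (χ : Q → ℂ) :
    charDegree (χ ∘ f) = charDegree χ := by
  rw [Blocks.Basic.charDegree_def, Blocks.Basic.charDegree_def, Function.comp_apply, map_one]

variable {p a : ℕ} {P : Type u} [Group P]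

/-- quotients -/
theorem TD.surj (h : TD p a P) {Q : Type v} [Group Q] (f : P →* Q) (hf : Function.Surjective f) :
    TD p a Q := by
  intro φ
  have h1 := h ⟨_, isIrr_comp f hf φ.2⟩
  rwa [charDegree_comp] at h1

theorem TD.equiv (h : TD p a P) {Q : Type v} [Group Q] (e : P ≃* Q) : TD p a Q :=
  h.surj e.toMonoidHom e.surjective

variable [Finite P]

/-- a group all of whose degrees are one is commutative -/
theorem TD.comm_of_zero (h : TD p 0 P) (x y : P) : x * y = y * x := by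
  refine comm_of_forall_one (fun χ hχ => ?_) x y
  rcases h ⟨χ, hχ⟩ with h1 | h1
  · exact h1
  · rwa [pow_zero] at h1

theorem TD.ne_zero (h : TD p a P) {x y : P} (hxy : x * y ≠ y * x) : a ≠ 0 := by
  rintro rfl
  exact hxy (h.comm_of_zero x y)

theorem TD.exists_deg (h : TD p a P) {x y : P} (hxy : x * y ≠ y * x) :
    ∃ χ : IrrCharacter P, charDegree (χ : P → ℂ) = p ^ a := by
  by_contra hno
  push Not at hno
  exact hxy (comm_of_forall_one (fun χ hχ => (h ⟨χ, hχ⟩).resolve_right (hno ⟨χ, hχ⟩)) x y)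

/-- degrees of subgroups -/
theorem TD.le (hp : p.Prime) (h : TD p a P) {H : Type v} [Group H] (i : H →* P) (hi : Function.Injective i)
    (ψ : IrrCharacter H) : charDegree (ψ : H → ℂ) ≤ p ^ a := by
  classical
  have := Fintype.ofFinite P
  have hfin : Finite i.range := inferInstance
  have := Fintype.ofFinite i.range
  let e : H ≃* i.range := MonoidHom.ofInjective hi
  have h1 : IsIrrCharacter i.range ((ψ : H → ℂ) ∘ e.symm.toMonoidHom) :=
    isIrr_comp e.symm.toMonoidHom e.symm.surjective ψ.2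
  obtain ⟨χ, hχ, hne⟩ := CharDeep.PowerDegrees.exists_irr_over i.range h1
  have h2 := degree_le_of_constituent (isCharacter_restrict i.range (isIrr_isCharacter hχ)) h1
    (n := charDegree χ) (by
      change χ ((1 : i.range) : P) = _
      rw [OneMemClass.coe_one]
      exact Blocks.Basic.irr_one_eq_charDegree hχ) hne
  rw [charDegree_comp] at h2
  refine h2.trans ?_
  rcases h ⟨χ, hχ⟩ with h3 | h3
  · exact h3.le.trans (Nat.one_le_pow _ _ hp.pos)
  · exact h3.le

/-- **V1.** The derived subgroup is abelian. -/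
theorem TD.comm_comm (h : TD p a P) (x y z w : P) : Commute ⁅x, y⁆ ⁅z, w⁆ := by
  by_cases hna : ∀ s t : P, s * t = t * s
  · exact hna _ _
  · push Not at hna
    obtain ⟨s, t, hst⟩ := hna
    obtain ⟨χ, hχ⟩ := h.exists_deg hst
    by_cases h1 : p ^ a = 1
    · exfalso
      exact hst (comm_of_forall_one (fun ξ hξ => (h ⟨ξ, hξ⟩).elim id fun h2 => h2.trans h1) s t)
    · exact Cfsg.Agent.S4458.result (p ^ a) h ⟨χ, hχ⟩ h1 _ (commutator_mem_commutator (mem_top x) (mem_top y)) _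
        (commutator_mem_commutator (mem_top z) (mem_top w))

/-- V1 for sections -/
theorem TD.comm_comm_section (h : TD p a P) {H : Type v} [Group H] (i : H →* P) (hi : Function.Injective i)
    {Q : Type w} [Group Q] (f : H →* Q) (hf : Function.Surjective f) (x y z w : Q) : Commute ⁅x, y⁆ ⁅z, w⁆ := by
  obtain ⟨x, rfl⟩ := hf x
  obtain ⟨y, rfl⟩ := hf y
  obtain ⟨z, rfl⟩ := hf z
  obtain ⟨w, rfl⟩ := hf w
  rw [← map_commutatorElement, ← map_commutatorElement]
  refine Commute.map ?_ f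
  apply hi
  have h1 := (h.comm_comm (i x) (i y) (i z) (i w)).eq
  rw [← map_commutatorElement, ← map_commutatorElement, ← map_mul, ← map_mul] at h1
  exact h1

/-- **V2.** A quotient with a character of degree `p`. -/
theorem TD.eq_one_of_deg (hp : p.Prime) (h : TD p a P) {Q : Type v} [Group Q] (f : P →* Q)
    (hf : Function.Surjective f) (ψ : IrrCharacter Q) (hψ : charDegree (ψ : Q → ℂ) = p) : a = 1 := by
  rcases h.surj f hf ψ with h1 | h1
  · exact absurd (hψ.symm.trans h1) hp.one_lt.ne'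
  · rw [hψ] at h1
    exact (Nat.pow_right_injective hp.two_le ((pow_one p).trans h1)).symm

/-- a subgroup of index `p` in a `p`-group is normal -/
theorem normal_of_index (hp : p.Prime) {Q : Type v} [Group Q] [Finite Q] (hQ : IsPGroup p Q) {A : Subgroup Q}
    (hA : A.index = p) : A.Normal := by
  have : Fact p.Prime := ⟨hp⟩
  obtain ⟨n, hn⟩ := IsPGroup.iff_card.1 hQ
  apply Subgroup.normal_of_index_eq_minFac_card
  rw [hn, hA, hp.pow_minFac]
  rintro rfl
  have h1 := A.index_dvd_card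
  rw [hn, hA, pow_zero] at h1
  exact hp.one_lt.ne' (Nat.dvd_one.1 h1)

/-- a nonabelian `p`-group with an abelian subgroup of index `p` has a character of degree `p` -/
theorem exists_degree_p (hp : p.Prime) {Q : Type v} [Group Q] [Finite Q] (hQ : IsPGroup p Q)
    (hna : ∃ x y : Q, x * y ≠ y * x) (A : Subgroup Q) (hA : A.index = p) (hab : ∀ x ∈ A, ∀ y ∈ A, x * y = y * x) :
    ∃ χ : IrrCharacter Q, charDegree (χ : Q → ℂ) = p :=
  ((Cfsg.Agent.S4459.result hna p hp).2 (Or.inl ⟨A, normal_of_index hp hQ hA, hab, hA⟩)).2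

/-- **V3.** A nonabelian quotient with an abelian subgroup of index `p`. -/
theorem TD.eq_one_of_abelian (hp : p.Prime) (hP : IsPGroup p P) (h : TD p a P) {Q : Type v} [Group Q] (f : P →* Q)
    (hf : Function.Surjective f) (hna : ∃ x y : Q, x * y ≠ y * x) (A : Subgroup Q) (hA : A.index = p)
    (hab : ∀ x ∈ A, ∀ y ∈ A, x * y = y * x) : a = 1 := by
  have : Finite Q := Finite.of_surjective f hf
  obtain ⟨χ, hχ⟩ := exists_degree_p hp (hP.of_surjective f hf) hna A hA hab
  exact h.eq_one_of_deg hp f hf χ hχ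

/-- A quotient with centre of index `p ^ 3`. -/
theorem TD.eq_one_of_center (hp : p.Prime) (h : TD p a P) {Q : Type v} [Group Q] (f : P →* Q)
    (hf : Function.Surjective f) (hA : (center Q).index = p ^ 3) : a = 1 := by
  have : Finite Q := Finite.of_surjective f hf
  have hna : ∃ x y : Q, x * y ≠ y * x := by
    by_contra hno
    push Not at hno
    have h1 : center Q = ⊤ := by
      rw [eq_top_iff]
      intro x _
      exact mem_center_iff.2 fun y => hno y x
    rw [h1, index_top] at hA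
    exact (Nat.one_lt_pow (by norm_num) hp.one_lt).ne hA
  obtain ⟨χ, hχ⟩ := ((Cfsg.Agent.S4459.result hna p hp).2 (Or.inr hA)).2
  exact h.eq_one_of_deg hp f hf χ hχ

/-- **V3.** A subgroup `M` of index `p` with `M' ≠ P'`. -/
theorem TD.eq_one_of_index (hp : p.Prime) (hP : IsPGroup p P) (h : TD p a P) (M : Subgroup P) (hM : M.index = p)
    (hne : ⁅M, M⁆ ≠ commutator P) : a = 1 := by
  have hMn : M.Normal := normal_of_index hp hP hM
  have hN : (⁅M, M⁆ : Subgroup P).Normal := commutator_normal M M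
  have hle : ⁅M, M⁆ ≤ commutator P := commutator_mono le_top le_top
  refine h.eq_one_of_abelian hp hP (QuotientGroup.mk' ⁅M, M⁆) (QuotientGroup.mk'_surjective _) ?_
    (M.map (QuotientGroup.mk' ⁅M, M⁆)) ?_ ?_
  · by_contra hno
    push Not at hno
    refine hne (le_antisymm hle ?_)
    rw [commutator_def, commutator_le]
    intro x _ y _
    rw [← QuotientGroup.eq_one_iff, commutatorElement_def, QuotientGroup.mk_mul, QuotientGroup.mk_mul,
      QuotientGroup.mk_mul, QuotientGroup.mk_inv, QuotientGroup.mk_inv, hno (x : P ⧸ ⁅M, M⁆) y]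
    group
  · rw [← index_comap_of_surjective _ (QuotientGroup.mk'_surjective ⁅M, M⁆), comap_map_eq, QuotientGroup.ker_mk',
      sup_eq_left.2 (commutator_le_left M M), hM]
  · rintro _ ⟨x, hx, rfl⟩ _ ⟨y, hy, rfl⟩
    rw [← map_mul, ← map_mul]
    refine (QuotientGroup.eq_iff_div_mem).2 ?_
    have h1 : x * y / (y * x) = ⁅x, y⁆ := by
      rw [commutatorElement_def, div_eq_mul_inv]
      group
    rw [h1]
    exact commutator_mem_commutator hx hy

/-! ### Two commuting nonabelian subgroups -/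

theorem dvd_relIndex (hp : p.Prime) (hP : IsPGroup p P) {H K : Subgroup P} (hlt : ¬ K ≤ H) : p ∣ H.relIndex K := by
  have : Fact p.Prime := ⟨hp⟩
  obtain ⟨n, hn⟩ := IsPGroup.iff_card.1 (hP.to_subgroup K)
  have h1 : H.relIndex K ∣ p ^ n := by
    rw [← hn]
    exact index_dvd_card _
  obtain ⟨k, -, hk⟩ := (Nat.dvd_prime_pow hp).1 h1
  rw [hk]
  refine dvd_pow_self p ?_
  rintro rfl
  rw [pow_zero] at hk
  exact hlt (relIndex_eq_one.1 hk)

/-- the centre has index divisible by `p ^ 4` -/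
theorem pow_four_dvd (hp : p.Prime) (hP : IsPGroup p P) {x₁ y₁ x₂ y₂ : P} (h1 : x₁ * y₁ ≠ y₁ * x₁)
    (h2 : x₂ * y₂ ≠ y₂ * x₂) (c1 : Commute x₁ x₂) (c2 : Commute x₁ y₂) (c3 : Commute y₁ x₂) (c4 : Commute y₁ y₂) :
    p ^ 4 ∣ (center P).index := by
  have hm : ∀ {x y : P}, x ∈ centralizer ({y} : Set P) ↔ y * x = x * y := fun {x y} => by
    rw [mem_centralizer_singleton_iff]
    exact eq_comm
  let D1 := centralizer ({x₁} : Set P)
  let D2 := D1 ⊓ centralizer ({y₁} : Set P)
  let D3 := D2 ⊓ centralizer ({x₂} : Set P)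
  let D4 := D3 ⊓ centralizer ({y₂} : Set P)
  have d1 : p ∣ D1.relIndex ⊤ := dvd_relIndex hp hP fun h => h1 (hm.1 (h (mem_top y₁)))
  have d2 : p ∣ D2.relIndex D1 := dvd_relIndex hp hP fun h =>
    h1 (hm.1 (h (show x₁ ∈ D1 from hm.2 rfl)).2).symm
  have d3 : p ∣ D3.relIndex D2 := dvd_relIndex hp hP fun h =>
    h2 (hm.1 (h (show y₂ ∈ D2 from ⟨hm.2 c2.eq, hm.2 c4.eq⟩)).2)
  have d4 : p ∣ D4.relIndex D3 := dvd_relIndex hp hP fun h =>
    h2 (hm.1 (h (show x₂ ∈ D3 from ⟨⟨hm.2 c1.eq, hm.2 c3.eq⟩, hm.2 rfl⟩)).2).symm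
  have e1 := relIndex_mul_relIndex D2 D1 ⊤ inf_le_left le_top
  have e2 := relIndex_mul_relIndex D3 D2 ⊤ inf_le_left le_top
  have e3 := relIndex_mul_relIndex D4 D3 ⊤ inf_le_left le_top
  have e4 := relIndex_mul_relIndex (center P) D4 ⊤ (fun z hz => by
    have hz' : ∀ g : P, z ∈ centralizer ({g} : Set P) := fun g => hm.2 (mem_center_iff.1 hz g)
    exact ⟨⟨⟨hz' _, hz' _⟩, hz' _⟩, hz' _⟩) le_top
  rw [relIndex_top_right (center P)] at e4
  rw [← e4, ← e3, ← e2, ← e1]
  have h3 : p ^ 4 = p * (p * (p * p)) := by ring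
  rw [h3]
  exact Dvd.dvd.mul_left (mul_dvd_mul d4 (mul_dvd_mul d3 (mul_dvd_mul d2 d1))) _

/-- an abelian subgroup of index `p` and two commuting nonabelian pairs -/
theorem false_of_abelian (hp : p.Prime) {A : Subgroup P} (hn : A.Normal) (hab : ∀ x ∈ A, ∀ y ∈ A, x * y = y * x)
    (hA : A.index = p) {x₁ y₁ x₂ y₂ : P} (h1 : x₁ * y₁ ≠ y₁ * x₁)
    (h2 : x₂ * y₂ ≠ y₂ * x₂) (c1 : Commute x₁ x₂) (c2 : Commute x₁ y₂) (c3 : Commute y₁ x₂) (c4 : Commute y₁ y₂) :
    False := by
  have hprime : Fact (Nat.card (P ⧸ A)).Prime := ⟨by rw [← index_eq_card, hA]; exact hp⟩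
  have key : ∀ t : P, t ∉ A → ∀ g : P, ∃ k : ℤ, ∃ b ∈ A, g = t ^ k * b := by
    intro t ht g
    have h3 : (t : P ⧸ A) ≠ 1 := fun h => ht ((QuotientGroup.eq_one_iff t).1 h)
    have h4 : (g : P ⧸ A) ∈ zpowers (t : P ⧸ A) := by
      rcases (zpowers (t : P ⧸ A)).eq_bot_or_eq_top_of_prime_card with h | h
      · exact absurd (zpowers_eq_bot.1 h) h3
      · rw [h]; exact mem_top _
    obtain ⟨k, hk⟩ := mem_zpowers_iff.1 h4
    refine ⟨k, (t ^ k)⁻¹ * g, ?_, by group⟩
    rw [← QuotientGroup.eq_one_iff, QuotientGroup.mk_mul, QuotientGroup.mk_inv, QuotientGroup.mk_zpow, hk]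
    group
  -- an element of `A` which commutes with `t ∉ A` is central
  have hcen : ∀ t : P, t ∉ A → ∀ b ∈ A, Commute b t → ∀ g : P, Commute b g := by
    intro t ht b hb hbt g
    obtain ⟨k, c, hc, rfl⟩ := key t ht g
    exact (hbt.zpow_right k).mul_right (hab b hb c hc)
  obtain ⟨t, htA, hx, hy⟩ : ∃ t, t ∉ A ∧ Commute x₁ t ∧ Commute y₁ t := by
    by_cases hx2 : x₂ ∈ A
    · exact ⟨y₂, fun h => h2 (hab _ hx2 _ h), c2, c4⟩
    · exact ⟨x₂, hx2, c1, c3⟩
  by_cases hx1 : x₁ ∈ A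
  · exact h1 (hcen t htA x₁ hx1 hx y₁).eq
  obtain ⟨k, b, hb, hk⟩ := key x₁ hx1 y₁
  have hbt : Commute b t := by
    have h3 : b = (x₁ ^ k)⁻¹ * y₁ := by rw [hk]; group
    rw [h3]
    exact ((hx.zpow_left k).inv_left).mul_left hy
  have h4 := hcen t htA b hb hbt x₁
  apply h1
  rw [hk]
  exact (((Commute.refl x₁).zpow_right k).mul_right h4.symm).eq

/-- **For `a = 1` there are no two commuting nonabelian subgroups.** -/
theorem TD.false_of_pairs (hp : p.Prime) (hP : IsPGroup p P) (h : TD p 1 P) {x₁ y₁ x₂ y₂ : P}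
    (h1 : x₁ * y₁ ≠ y₁ * x₁) (h2 : x₂ * y₂ ≠ y₂ * x₂) (c1 : Commute x₁ x₂) (c2 : Commute x₁ y₂)
    (c3 : Commute y₁ x₂) (c4 : Commute y₁ y₂) : False := by
  have hcd : ∀ χ : IrrCharacter P, charDegree (χ : P → ℂ) = 1 ∨ charDegree (χ : P → ℂ) = p := by
    intro χ
    have h3 := h χ
    rwa [pow_one] at h3
  have hex : ∃ χ : IrrCharacter P, charDegree (χ : P → ℂ) = p := by
    obtain ⟨χ, hχ⟩ := h.exists_deg h1
    exact ⟨χ, by rwa [pow_one] at hχ⟩
  rcases (Cfsg.Agent.S4459.result ⟨x₁, y₁, h1⟩ p hp).1 ⟨hcd, hex⟩ with ⟨A, hn, hab, hA⟩ | hZ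
  · exact false_of_abelian hp hn hab hA h1 h2 c1 c2 c3 c4
  · have h3 := pow_four_dvd hp hP h1 h2 c1 c2 c3 c4
    rw [hZ] at h3
    have h4 := (Nat.pow_dvd_pow_iff_le_right hp.one_lt).1 h3
    omega

/-! ### Sylow subgroups -/

/-- a `p`-group embedded in `A` embeds in every Sylow `p`-subgroup -/
theorem exists_hom {A : Type u} [Group A] [Finite A] [Fact p.Prime] (P : Sylow p A) {X : Type v} [Group X]
    (f : X →* A) (hf : Function.Injective f) (hX : IsPGroup p X) :
    ∃ i : X →* (P : Subgroup A), Function.Injective i := by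
  have h1 : IsPGroup p f.range := hX.of_surjective f.rangeRestrict f.rangeRestrict_surjective
  obtain ⟨P', hP'⟩ := h1.exists_le_sylow
  obtain ⟨g, hg⟩ := MulAction.exists_smul_eq A P' P
  have h2 : ∀ x : X, g * f x * g⁻¹ ∈ (P : Subgroup A) := by
    intro x
    rw [← hg]
    have h3 : f x ∈ P' := hP' ⟨x, rfl⟩
    have h4 := Subgroup.smul_mem_pointwise_smul (f x) (MulAut.conj g) (P' : Subgroup A) h3
    rwa [MulAut.smul_def, MulAut.conj_apply] at h4
  refine ⟨{ toFun := fun x => ⟨g * f x * g⁻¹, h2 x⟩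
            map_one' := Subtype.ext (by simp)
            map_mul' := fun x y => Subtype.ext (by
              simp only [map_mul, Subgroup.coe_mul]
              group) }, ?_⟩
  intro x y hxy
  have h5 : g * f x * g⁻¹ = g * f y * g⁻¹ := congrArg Subtype.val hxy
  exact hf (mul_left_cancel (mul_right_cancel h5))

/-- the conclusion of the Isaacs–Passman theorem for `p = 2` (`H709.HT.ip_two`) -/
def IPTwo : Prop := ∀ (P : Type) [Group P] [Finite P], IsPGroup 2 P → ∀ a : ℕ, 2 ≤ a → TD 2 a P →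
  ⁅⁅(⊤ : Subgroup P), (⊤ : Subgroup P)⁆, (⊤ : Subgroup P)⁆ = ⊥

/-- **The vacuous case for `p = 2`**, inside `P`. -/
theorem TD.vac_two (h2 : IsPGroup 2 P) (h : TD 2 a P)
    (hIP : 2 ≤ a → ⁅⁅(⊤ : Subgroup P), (⊤ : Subgroup P)⁆, (⊤ : Subgroup P)⁆ = ⊥) {x y z : P} (hc : ⁅⁅x, y⁆, z⁆ ≠ 1)
    {x₁ y₁ x₂ y₂ : P} (h1 : x₁ * y₁ ≠ y₁ * x₁) (h2' : x₂ * y₂ ≠ y₂ * x₂) (c1 : Commute x₁ x₂)
    (c2 : Commute x₁ y₂) (c3 : Commute y₁ x₂) (c4 : Commute y₁ y₂) : False := by
  have h0 : a ≠ 0 := h.ne_zero h1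
  by_cases ha : a = 1
  · subst ha
    exact h.false_of_pairs Nat.prime_two h2 h1 h2' c1 c2 c3 c4
  · have h3 : ⁅⁅x, y⁆, z⁆ ∈ ⁅⁅(⊤ : Subgroup P), (⊤ : Subgroup P)⁆, (⊤ : Subgroup P)⁆ :=
      commutator_mem_commutator (commutator_mem_commutator (mem_top x) (mem_top y)) (mem_top z)
    rw [hIP (by omega), mem_bot] at h3
    exact hc h3

end Cfsg.Agent.H681.IP
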